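import Mathlib.LinearAlgebra.Trace
import Cfsg.Agent.Char.Orthogonality
import Cfsg.Agent.Char.Virtual
import Cfsg.Agent.Char.Kernel
import Cfsg.Agent.Linear.Classes

/-!
# Generic facts for the character tables of `GL(2, q)` and `SL(2, q)`
-/

set_option autoImplicit false
set_option linter.unusedSectionVars false

namespace Cfsg.Agent.GL2Char

open Cfsg
open scoped ComplexConjugate

section Generic

variable {G : Type*} [Group G]

/-- If the average of a character over a subgroup vanishes, so does the average over every coset. -/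
theorem sum_shift_eq_zero {U : Type*} [Group U] [Fintype U] {χ : G → ℂ} (h : IsCharacter G χ)
    (f : U →* G) (h0 : ∑ u, χ (f u) = 0) (g : G) : ∑ u, χ (g * f u) = 0 := by
  obtain ⟨n, ρ, rfl⟩ := h
  set P : Module.End ℂ (Fin n → ℂ) := ∑ u, ρ (f u) with hP
  have hPP : P * P = (Fintype.card U : ℂ) • P := by
    rw [hP, Finset.sum_mul]
    have h1 : ∀ v : U, ρ (f v) * ∑ u, ρ (f u) = ∑ u, ρ (f u) := by
      intro v
      rw [Finset.mul_sum]
      exact Fintype.sum_equiv (Equiv.mulLeft v) _ _ fun u => by simp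
    rw [Finset.sum_congr rfl fun v _ => h1 v, Finset.sum_const, Finset.card_univ,
      ← Nat.cast_smul_eq_nsmul ℂ]
  set e : Module.End ℂ (Fin n → ℂ) := (Fintype.card U : ℂ)⁻¹ • P with he
  have hU : (Fintype.card U : ℂ) ≠ 0 := by simp
  have hee : ∀ x, e (e x) = e x := fun x => by
    have : e * e = e := by
      rw [he, smul_mul_smul_comm, hPP, smul_smul]
      congr 1
      field_simp
    exact LinearMap.congr_fun this x
  have htr : LinearMap.trace ℂ (Fin n → ℂ) P = 0 := by
    rw [hP, map_sum]; exact h0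
  have hproj : LinearMap.IsProj (LinearMap.range e) e :=
    ⟨fun x => LinearMap.mem_range_self e x, by rintro _ ⟨x, rfl⟩; exact hee x⟩
  have hr := hproj.trace
  rw [he, map_smul, htr, smul_zero, eq_comm, Nat.cast_eq_zero, ← he, Submodule.finrank_eq_zero,
    LinearMap.range_eq_bot, he, smul_eq_zero] at hr
  have hP0 : P = 0 := hr.resolve_left (inv_ne_zero hU)
  calc ∑ u, ρ.character (g * f u) = LinearMap.trace ℂ (Fin n → ℂ) (ρ g * P) := by
        rw [hP, Finset.mul_sum, map_sum]
        exact Finset.sum_congr rfl fun u _ => by rw [Representation.character, map_mul]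
    _ = 0 := by rw [hP0, mul_zero, map_zero]

theorem eq_zero_of_classInner_self [Fintype G] {f : G → ℂ} (h : classInner f f = 0) : f = 0 := by
  rw [classInner, mul_eq_zero, inv_eq_zero, or_iff_right Char.card_ne_zero_complex] at h
  simp only [Complex.mul_conj] at h
  rw [← Complex.ofReal_sum, Complex.ofReal_eq_zero,
    Finset.sum_eq_zero_iff_of_nonneg fun g _ => Complex.normSq_nonneg _] at h
  funext g
  exact Complex.normSq_eq_zero.1 (h g (Finset.mem_univ g))

open scoped Classical in
/-- A character of norm two is the sum of two distinct irreducible characters. -/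
theorem exists_pair_of_character_norm_two [Fintype G] {χ : G → ℂ} (h : IsCharacter G χ)
    (h2 : classInner χ χ = 2) :
    ∃ θ θ' : IrrCharacter G, θ ≠ θ' ∧ χ = (θ : G → ℂ) + (θ' : G → ℂ) := by
  obtain ⟨m, hm, hmi⟩ := Char.isCharacter_exists_coeff h
  have hnorm : ∑ ψ, m ψ * m ψ = 2 := by
    have he := Char.classInner_eq_sum_mul_conj (b := χ) (Char.isCharacter_isClassFunction h)
    rw [h2] at he
    simp only [hmi, map_natCast] at he
    exact_mod_cast he.symm
  have hle : ∀ ψ, m ψ ≤ 1 := by
    intro ψ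
    have he := Finset.single_le_sum (f := fun φ => m φ * m φ) (fun φ _ => Nat.zero_le _)
      (Finset.mem_univ ψ)
    rw [hnorm] at he
    by_contra hc
    have : 2 * 2 ≤ m ψ * m ψ := Nat.mul_le_mul (by omega) (by omega)
    omega
  have hS : (Finset.univ.filter fun ψ => m ψ = 1).card = 2 := by
    refine Eq.trans ?_ hnorm
    rw [Finset.card_filter]
    refine Finset.sum_congr rfl fun ψ _ => ?_
    have := hle ψ
    interval_cases m ψ <;> rfl
  obtain ⟨θ, θ', hne, hpair⟩ := Finset.card_eq_two.1 hS
  have hmem : ∀ ψ, m ψ = 1 ↔ ψ = θ ∨ ψ = θ' := fun ψ => by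
    simpa using Finset.ext_iff.1 hpair ψ
  refine ⟨θ, θ', hne, ?_⟩
  rw [hm, ← Finset.sum_subset (Finset.subset_univ ({θ, θ'} : Finset (IrrCharacter G)))]
  · rw [Finset.sum_pair hne, (hmem θ).2 (Or.inl rfl), (hmem θ').2 (Or.inr rfl), one_smul, one_smul]
  · intro ψ _ hψ
    have := hle ψ
    have h' : m ψ ≠ 1 := fun e => hψ (by simpa using (hmem ψ).1 e)
    rw [show m ψ = 0 by omega, zero_smul]

end Generic

section Matrices

variable {F : Type*} [Field F]

local notation "M2" => Matrix (Fin 2) (Fin 2) F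

/-- A matrix without eigenvectors over the ground field. -/
theorem elliptic_entries {A : M2} (h : ∀ (c : F) (v : Fin 2 → F), v ≠ 0 → A.mulVec v ≠ c • v) :
    A 1 0 ≠ 0 ∧ (∀ c : F, A 1 0 * c ^ 2 + (A 1 1 - A 0 0) * c - A 0 1 ≠ 0) ∧
      (∀ r : F, r ^ 2 - A.trace * r + A.det ≠ 0) := by
  have h10 : A 1 0 ≠ 0 := by
    intro e
    refine h (A 0 0) ![1, 0] (by simp) ?_
    ext i
    fin_cases i <;> simp [Matrix.mulVec, dotProduct, Fin.sum_univ_two, e]
  have hq : ∀ c : F, A 1 0 * c ^ 2 + (A 1 1 - A 0 0) * c - A 0 1 ≠ 0 := by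
    intro c e
    refine h (A 1 0 * c + A 1 1) ![c, 1] (fun hv => one_ne_zero (congrFun hv 1)) ?_
    ext i
    fin_cases i
    · simp [Matrix.mulVec, dotProduct, Fin.sum_univ_two]
      linear_combination -e
    · simp [Matrix.mulVec, dotProduct, Fin.sum_univ_two]
  refine ⟨h10, hq, fun r e => hq ((r - A 1 1) / A 1 0) ?_⟩
  simp only [Matrix.trace_fin_two, Matrix.det_fin_two] at e
  field_simp
  linear_combination e

end Matrices

end Cfsg.Agent.GL2Char
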